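import Mathlib
import Cfsg.Agent.Lib.OFP.Defs

set_option autoImplicit false
set_option linter.unusedSectionVars false

namespace CfsgLib.OFP

open Subgroup Cfsg CfsgLib.LAE CfsgLib.Push CfsgLib.Blocks CfsgLib.ZJ
open scoped commutatorElement

variable {Γ : Type*} [Group Γ] [Finite Γ]

theorem SameG.refl (G : Type*) [Group G] : SameG G G :=
  ⟨fun _ _ => Iff.rfl, fun _ _ _ _ _ => Iff.rfl⟩

theorem SameG.symm {G H : Type*} [Group G] [Group H] (h : SameG G H) : SameG H G :=
  ⟨fun p hp => (h.1 p hp).symm, fun p q hp hq hpq => (h.2 p q hp hq hpq).symm⟩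

theorem SameG.trans {G H K : Type*} [Group G] [Group H] [Group K] (h : SameG G H) (h' : SameG H K) :
    SameG G K :=
  ⟨fun p hp => (h.1 p hp).trans (h'.1 p hp),
    fun p q hp hq hpq => (h.2 p q hp hq hpq).trans (h'.2 p q hp hq hpq)⟩

theorem SameG.of_equiv {G H : Type*} [Group G] [Group H] (e : G ≃* H) : SameG G H :=
  ⟨fun _ _ => by rw [Nat.card_congr e.toEquiv], fun _ _ _ _ _ =>
    ⟨fun ⟨g, hg⟩ => ⟨e g, by rw [e.orderOf_eq, hg]⟩,
      fun ⟨g, hg⟩ => ⟨e.symm g, by rw [e.symm.orderOf_eq, hg]⟩⟩⟩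

/-- The diagonal action. -/
def unbDiag {G V : Type*} [Group G] [Group V] (ι : Type*) (ρ : G →* MulAut V) : G →* MulAut (ι → V) where
  toFun g := MulEquiv.piCongrRight fun _ => ρ g
  map_one' := by ext; simp
  map_mul' _ _ := by ext; simp

theorem unbDiag_apply {G V : Type*} [Group G] [Group V] (ι : Type*) (ρ : G →* MulAut V) (g : G) (w : ι → V)
    (i : ι) : unbDiag ι ρ g w i = ρ g (w i) := rfl

theorem unb_aux {G W : Type*} [Group G] [CommGroup W] {p : ℕ} (hp : p.Prime) (hW : IsPGroup p W)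
    (φ : G →* MulAut W)
    (hfix : ∀ (g : G) (v : W) (q : ℕ), q.Prime → q ≠ p → orderOf g = q → v ≠ 1 → φ g v = v →
      ∃ x : G, orderOf x = p * q) {s q : ℕ} (hs : s.Prime) (hq : q.Prime) (hsq : s ≠ q) {h : W ⋊[φ] G}
    (ho : orderOf h = s * q) (h1 : SemidirectProduct.rightHom (h ^ q) = 1) : ∃ x : G, orderOf x = s * q := by
  have := Fact.mk hp
  have := Fact.mk hq
  have key : ∀ (x : W ⋊[φ] G) (r : ℕ), r.Prime → orderOf x = r → SemidirectProduct.rightHom x = 1 → r = p := by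
    intro x r hr hx h2
    obtain ⟨w, rfl⟩ : x ∈ (SemidirectProduct.inl : W →* W ⋊[φ] G).range := by
      rw [SemidirectProduct.range_inl_eq_ker_rightHom]
      exact h2
    rw [orderOf_injective _ SemidirectProduct.inl_injective] at hx
    obtain ⟨k, hk⟩ := hW w
    exact (Nat.prime_dvd_prime_iff_eq hr hp).1 (hr.dvd_of_dvd_pow (hx ▸ orderOf_dvd_of_pow_eq_one hk))
  have hx : orderOf (h ^ q) = s := by
    rw [orderOf_pow_of_dvd hq.ne_zero (ho ▸ dvd_mul_left q s), ho, Nat.mul_div_cancel _ hq.pos]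
  have hy : orderOf (h ^ s) = q := by
    rw [orderOf_pow_of_dvd hs.ne_zero (ho ▸ dvd_mul_right s q), ho, Nat.mul_div_cancel_left _ hs.pos]
  obtain rfl := key _ s hs hx h1
  have hc : Commute (h ^ s) (h ^ q) := (Commute.refl h).pow_pow s q
  have hg : orderOf (SemidirectProduct.rightHom (h ^ s)) = q := by
    refine orderOf_eq_prime ?_ fun h2 => hsq (key _ q hq hy h2).symm
    rw [← map_pow, ← hy, pow_orderOf_eq_one, map_one]
  generalize h ^ q = x at hx h1 hc
  generalize h ^ s = y at hg hc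
  refine hfix _ x.left q hq hsq.symm hg (fun h2 => hs.ne_one ?_) ?_
  · rw [← hx, orderOf_eq_one_iff]
    exact SemidirectProduct.ext h2 h1
  · have h2 := congrArg SemidirectProduct.left hc.eq
    have h3 : x.right = 1 := h1
    rw [SemidirectProduct.mul_left, SemidirectProduct.mul_left, h3, map_one, MulAut.one_apply,
      mul_comm x.left] at h2
    exact mul_left_cancel h2

/-- `H = (Fin (n + 1) → V) ⋊ G` with the diagonal action, `|H| ≥ 2 ^ (n + 1) > n`. `G` embeds in `H`, and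
`|H| = |V| ^ (n + 1) |G|`. Let `h ∈ H` have order `s q`, `s ≠ q` primes, `x = h ^ q` of order `s`, `y = h ^ s` of order
`q`. If both images in `G` are non-trivial the image of `h` has order `s q`. Otherwise say `x` lies in the kernel, so
`s = p ≠ q`, the image `g` of `y` has order `q` and fixes a non-trivial coordinate of `x`; use `hfix`. -/
theorem unbounded {G V : Type} [Group G] [Finite G] [CommGroup V] [Finite V] [Nontrivial V] {p : ℕ} (hp : p.Prime)
    (hV : IsPGroup p V) (hG : p ∣ Nat.card G) (ρ : G →* MulAut V)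
    (hfix : ∀ (g : G) (v : V) (q : ℕ), q.Prime → q ≠ p → orderOf g = q → v ≠ 1 → ρ g v = v →
      ∃ x : G, orderOf x = p * q) (n : ℕ) :
    ∃ (H : Type) (_ : Group H) (_ : Finite H), SameG G H ∧ n < Nat.card H := by
  have := Fact.mk hp
  have hW : IsPGroup p (Fin n → V) := by
    obtain ⟨k, hk⟩ := IsPGroup.iff_card.1 hV
    exact IsPGroup.of_card (n := k * n) (by rw [Nat.card_fun, hk, Nat.card_fin, pow_mul])
  have hfix' : ∀ (g : G) (v : Fin n → V) (q : ℕ), q.Prime → q ≠ p → orderOf g = q → v ≠ 1 →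
      unbDiag (Fin n) ρ g v = v → ∃ x : G, orderOf x = p * q := fun g v q hq hqp hg hv h => by
    obtain ⟨i, hi⟩ := Function.ne_iff.1 hv
    exact hfix g (v i) q hq hqp hg hi (congrFun h i)
  refine ⟨(Fin n → V) ⋊[unbDiag (Fin n) ρ] G, inferInstance,
    Finite.of_equiv _ SemidirectProduct.equivProd.symm, ⟨fun r hr => ?_, fun s q hs hq hsq => ?_⟩, ?_⟩
  · rw [SemidirectProduct.card]
    refine ⟨fun h => h.mul_left _, fun h => ((Nat.Prime.dvd_mul hr).1 h).elim (fun h => ?_) id⟩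
    obtain ⟨k, hk⟩ := IsPGroup.iff_card.1 hW
    rwa [(Nat.prime_dvd_prime_iff_eq hr hp).1 (hr.dvd_of_dvd_pow (hk ▸ h))]
  · refine ⟨fun ⟨g, hg⟩ => ⟨SemidirectProduct.inr g, by
      rw [orderOf_injective _ SemidirectProduct.inr_injective, hg]⟩, fun ⟨h, ho⟩ => ?_⟩
    by_cases h1 : SemidirectProduct.rightHom (h ^ q) = 1
    · exact unb_aux hp hW _ hfix' hs hq hsq ho h1
    by_cases h2 : SemidirectProduct.rightHom (h ^ s) = 1
    · rw [mul_comm] at ho ⊢
      exact unb_aux hp hW _ hfix' hq hs hsq.symm ho h2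
    refine ⟨SemidirectProduct.rightHom h, orderOf_eq_of_pow_and_pow_div_prime (mul_pos hs.pos hq.pos) ?_
      fun r hr hd => ?_⟩
    · rw [← map_pow, ← ho, pow_orderOf_eq_one, map_one]
    · rw [← map_pow]
      rcases (Nat.Prime.dvd_mul hr).1 hd with h3 | h3
      · rwa [(Nat.prime_dvd_prime_iff_eq hr hs).1 h3, Nat.mul_div_cancel_left _ hs.pos]
      · rwa [(Nat.prime_dvd_prime_iff_eq hr hq).1 h3, Nat.mul_div_cancel _ hq.pos]
  · rw [SemidirectProduct.card, Nat.card_fun, Nat.card_fin]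
    exact (Nat.lt_pow_self Finite.one_lt_card).trans_le (Nat.le_mul_of_pos_right _ Nat.card_pos)

/-- A non-trivial solvable normal subgroup contains a non-trivial abelian normal `p`-subgroup `V` of `G`; let `G` act
on `V` by conjugation (`MulAut.conjNormal`); in `hfix` take `x = v' g` with `v'` a power of `v` of order `p`. -/
theorem unbounded_of_solv {G : Type} [Group G] [Finite G] (N : Subgroup G) [N.Normal] (h0 : N ≠ ⊥)
    (hs : Group.IsSolvable N) (n : ℕ) :
    ∃ (H : Type) (_ : Group H) (_ : Finite H), SameG G H ∧ n < Nat.card H := by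
  obtain ⟨A, ⟨hA, hA0, hAN⟩, hm⟩ := wellFounded_lt.has_min {A : Subgroup G | A.Normal ∧ A ≠ ⊥ ∧ A ≤ N}
    ⟨N, inferInstance, h0, le_rfl⟩
  have hc : ⁅A, A⁆ = ⊥ := by
    by_contra h
    have : Group.IsSolvable A := Group.isSolvable_of_isSolvable_injective (inclusion_injective hAN)
    have := (nontrivial_iff_ne_bot A).2 hA0
    have h1 := Group.IsSolvable.commutator_lt_top_of_nontrivial A
    refine hm ⁅A, A⁆ ⟨inferInstance, h, (commutator_le_left A A).trans hAN⟩ ?_
    rwa [← map_lt_map_iff_of_injective A.subtype_injective, map_subtype_commutator, ← MonoidHom.range_eq_map,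
      range_subtype] at h1
  have hcm : ∀ x ∈ A, ∀ y ∈ A, Commute x y := fun x hx y hy =>
    commutatorElement_eq_one_iff_commute.1 (mem_bot.1 (hc ▸ commutator_mem_commutator hx hy))
  obtain ⟨p, hp, hd⟩ := Nat.exists_prime_and_dvd (fun h => hA0 (card_eq_one.1 h))
  have := Fact.mk hp
  obtain ⟨a, ha⟩ := exists_prime_orderOf_dvd_card' p hd
  let V : Subgroup G :=
    { carrier := {x | x ∈ A ∧ x ^ p = 1}
      mul_mem' := fun {x y} hx hy => ⟨A.mul_mem hx.1 hy.1, by
        rw [(hcm x hx.1 y hy.1).mul_pow, hx.2, hy.2, one_mul]⟩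
      one_mem' := ⟨A.one_mem, one_pow p⟩
      inv_mem' := fun {x} hx => ⟨A.inv_mem hx.1, by rw [inv_pow, hx.2, inv_one]⟩ }
  have : V.Normal := ⟨fun x hx g => ⟨hA.conj_mem x hx.1 g, by rw [conj_pow, hx.2, mul_one, mul_inv_cancel]⟩⟩
  let : CommGroup V := { (inferInstance : Group V) with
    mul_comm := fun x y => Subtype.ext (hcm x x.2.1 y y.2.1).eq }
  have : Nontrivial V := ⟨⟨⟨a, a.2, by rw [← A.coe_pow, ← ha, pow_orderOf_eq_one, A.coe_one]⟩, 1, fun h => by
    have h1 : a = 1 := Subtype.ext (congrArg (Subtype.val : V → G) h)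
    rw [h1, orderOf_one] at ha
    exact hp.ne_one ha.symm⟩⟩
  refine unbounded (V := V) hp (fun x => ⟨1, Subtype.ext (by rw [pow_one]; exact x.2.2)⟩)
    (hd.trans (card_subgroup_dvd_card A)) MulAut.conjNormal (fun g v q hq hqp hg hv h => ⟨v * g, ?_⟩) n
  have h1 : orderOf (v : G) = p := orderOf_eq_prime v.2.2 fun h => hv (Subtype.ext h)
  have h2 : Commute (v : G) g := (mul_inv_eq_iff_eq_mul.1 (congrArg Subtype.val h)).symm
  rw [h2.orderOf_mul_eq_mul_orderOf_of_coprime, h1, hg]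
  rw [h1, hg]
  exact (Nat.coprime_primes hp hq).2 hqp.symm

/-- `V = Multiplicative (ZMod 2)` with trivial action. -/
theorem unbounded_of_adj {G : Type} [Group G] [Finite G] (h2 : 2 ∣ Nat.card G)
    (h : ∀ q : ℕ, q.Prime → q ≠ 2 → q ∣ Nat.card G → ∃ x : G, orderOf x = 2 * q) (n : ℕ) :
    ∃ (H : Type) (_ : Group H) (_ : Finite H), SameG G H ∧ n < Nat.card H :=
  unbounded (V := Multiplicative (ZMod 2)) Nat.prime_two (IsPGroup.of_card (n := 1) (by simp)) h2 1
    (fun g _ q hq hq2 hg _ _ => h q hq hq2 (hg ▸ orderOf_dvd_natCard g)) n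

end CfsgLib.OFP
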